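import Cfsg.Agent.Lib.KgT.Defs

/-! From the group `X = VG` to the action of `G` on `V`. -/

set_option autoImplicit false

namespace CfsgLib.KgT

universe u

/-- coprime splitting of a vector under one group element -/
theorem wrap_split {G V : Type*} [Group G] [AddCommGroup V] [DistribMulAction G V] {p o : ℕ}
    (hp : ∀ v : V, p • v = 0) (hc : Nat.Coprime o p) (g : G) (hg : g ^ o = 1) (v : V) :
    ∃ c w : V, g • c = c ∧ v = c + (g • w - w) := by
  have h1 : ∀ i : ℕ, ∃ w : V, g ^ i • v = v + (g • w - w) := by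
    intro i
    induction i with
    | zero => exact ⟨0, by simp⟩
    | succ i ih =>
      obtain ⟨w, hw⟩ := ih
      refine ⟨w + g ^ i • v, ?_⟩
      rw [pow_succ', mul_smul, smul_add]
      nth_rewrite 3 [hw]
      abel
  have h2 : ∀ m : ℕ, ∃ w : V, ∑ i ∈ Finset.range m, g ^ i • v = m • v + (g • w - w) := by
    intro m
    induction m with
    | zero => exact ⟨0, by simp⟩
    | succ m ih =>
      obtain ⟨w, hw⟩ := ih
      obtain ⟨w', hw'⟩ := h1 m
      refine ⟨w + w', ?_⟩
      rw [Finset.sum_range_succ, hw, hw', smul_add, succ_nsmul]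
      abel
  obtain ⟨w, hw⟩ := h2 o
  set N := ∑ i ∈ Finset.range o, g ^ i • v with hN
  have hfix : g • N = N := by
    have e1 : g • N = ∑ i ∈ Finset.range o, g ^ (i + 1) • v := by
      rw [hN, Finset.smul_sum]
      exact Finset.sum_congr rfl fun i _ => by rw [pow_succ', mul_smul]
    have e2 := Finset.sum_range_succ' (fun i => g ^ i • v) o
    have e3 := Finset.sum_range_succ (fun i => g ^ i • v) o
    simp only [hg, pow_zero, one_smul] at e2 e3
    rw [e1]
    exact add_right_cancel (e2.symm.trans e3)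
  obtain ⟨a, b, hab⟩ := Nat.isCoprime_iff_coprime.2 hc
  refine ⟨a • N, -(a • w), by rw [smul_comm, hfix], ?_⟩
  have hv : v = a • (o • v) := by
    have e : (a * (o : ℤ) + b * (p : ℤ)) • v = v := by rw [hab, one_smul]
    rw [add_smul, mul_smul, mul_smul, natCast_zsmul, natCast_zsmul, hp, smul_zero, add_zero] at e
    exact e.symm
  rw [hw, smul_add, ← hv, smul_neg, smul_comm g a w, smul_sub]
  abel

open scoped IsMulCommutative in
theorem wrap
    (main : ∀ (G V : Type u) [Group G] [AddCommGroup V] [DistribMulAction G V] [Finite G]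
      [Finite V] [FaithfulSMul G V] (p n : ℕ), Tr G V p n → Concl G V)
    {X : Type u} [Group X] [Finite X] (p : ℕ) [Fact p.Prime] (V : Subgroup X) [V.Normal]
    (hVexp : ∀ v ∈ V, v ^ p = 1) (hidx : ¬ p ∣ V.index)
    (hself : Subgroup.centralizer (V : Set X) = V) (G : Subgroup X)
    (hGV : Subgroup.IsComplement' V G)
    (htrans : ∀ v ∈ V, ∀ w ∈ V, v ≠ 1 → w ≠ 1 → ∃ g ∈ G, g * v * g⁻¹ = w) :
    Nat.card (ConjClasses X) ≤ Nat.card V ∧ (Nat.card (ConjClasses X) = Nat.card V →
      (IsCyclic G ∨ (Nat.card V = 8 ∧ Nat.card G = 21) ∨ (Nat.card V = 9 ∧ Nat.card G = 16))) := by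
  have hp : p.Prime := Fact.out
  have hN : V.Normal := inferInstance
  by_cases hV : V = ⊥
  · have hX : ∀ x : X, x = 1 := fun x => by
      have : x ∈ Subgroup.centralizer (V : Set X) := by
        rw [Subgroup.mem_centralizer_iff]
        intro y hy
        rw [hV] at hy
        rw [Subgroup.mem_bot.1 hy, one_mul, mul_one]
      rw [hself, hV] at this
      exact Subgroup.mem_bot.1 this
    have : Subsingleton X := ⟨fun a b => by rw [hX a, hX b]⟩
    refine ⟨(kk_le X).trans ?_, fun _ => Or.inl inferInstance⟩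
    rw [Nat.card_unique]
    exact Nat.card_pos
  have hcomm : ∀ a ∈ V, ∀ b ∈ V, a * b = b * a := fun a ha b hb => by
    rw [← hself] at hb
    exact Subgroup.mem_centralizer_iff.1 hb a ha
  have : IsMulCommutative V := ⟨⟨fun a b => Subtype.ext (hcomm a a.2 b b.2)⟩⟩
  let act : DistribMulAction G (Additive V) :=
    { smul := fun g v => Additive.ofMul
        ⟨(g : X) * (v.toMul : V) * (g : X)⁻¹, hN.conj_mem _ v.toMul.2 _⟩
      one_smul := fun v => Additive.toMul.injective (Subtype.ext (by
        change ((1 : G) : X) * _ * ((1 : G) : X)⁻¹ = _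
        simp))
      mul_smul := fun g h v => Additive.toMul.injective (Subtype.ext (by
        change ((g * h : G) : X) * _ * ((g * h : G) : X)⁻¹ =
          (g : X) * ((h : X) * _ * (h : X)⁻¹) * (g : X)⁻¹
        simp [mul_assoc]))
      smul_zero := fun g => Additive.toMul.injective (Subtype.ext (by
        change (g : X) * ((1 : V) : X) * (g : X)⁻¹ = ((1 : V) : X)
        simp))
      smul_add := fun g v w => Additive.toMul.injective (Subtype.ext (by
        change (g : X) * ((v.toMul : X) * (w.toMul : X)) * (g : X)⁻¹ =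
          (g : X) * (v.toMul : X) * (g : X)⁻¹ * ((g : X) * (w.toMul : X) * (g : X)⁻¹)
        simp [mul_assoc])) }
  have hsm : ∀ (g : G) (v : Additive V),
      (((g • v).toMul : V) : X) = (g : X) * (v.toMul : V) * (g : X)⁻¹ := fun _ _ => rfl
  have hext : ∀ v w : Additive V, ((v.toMul : V) : X) = (w.toMul : V) → v = w := fun v w e =>
    Additive.toMul.injective (Subtype.ext e)
  have hfaith : FaithfulSMul G (Additive V) := by
    refine ⟨fun {g h} e => ?_⟩
    have hm : ((h⁻¹ * g : G) : X) ∈ V := by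
      rw [← hself, Subgroup.mem_centralizer_iff]
      intro y hy
      have e1 := congrArg (fun v : Additive V => ((v.toMul : V) : X)) (e (Additive.ofMul ⟨y, hy⟩))
      simp only [hsm, toMul_ofMul] at e1
      have e2 : (h : X)⁻¹ * ((g : X) * y * (g : X)⁻¹) * g = (h : X)⁻¹ * (h * y * (h : X)⁻¹) * g := by
        rw [e1]
      simpa [mul_assoc] using e2.symm
    have := Subgroup.disjoint_def.1 hGV.disjoint hm (h⁻¹ * g).2
    have e3 : h⁻¹ * g = 1 := Subtype.ext this
    rw [inv_mul_eq_one] at e3
    exact e3.symm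
  have hPG : IsPGroup p V := fun v => ⟨1, Subtype.ext (by simpa using hVexp v v.2)⟩
  obtain ⟨n, hn⟩ := IsPGroup.iff_card.1 hPG
  have hn0 : 0 < n := by
    rcases Nat.eq_zero_or_pos n with h0 | h0
    · rw [h0, pow_zero, Subgroup.card_eq_one] at hn
      exact absurd hn hV
    · exact h0
  have hGc : Nat.card G = V.index := hGV.symm.index_eq_card.symm
  have hcardA : Nat.card (Additive V) = Nat.card V := Nat.card_congr Additive.toMul
  have hne : ∀ v : Additive V, v ≠ 0 → ((v.toMul : V) : X) ≠ 1 := fun v hv e =>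
    hv (hext _ _ e)
  have hTr : Tr G (Additive V) p n :=
    { prime := hp
      card := hcardA.trans hn
      pos := hn0
      cop := by rw [hGc]; exact hidx
      tr := fun v w hv hw => by
        obtain ⟨g, hg, e⟩ := htrans _ v.toMul.2 _ w.toMul.2 (hne v hv) (hne w hw)
        exact ⟨⟨g, hg⟩, hext _ _ e⟩ }
  have hC := main G (Additive V) p n hTr
  have := hTr.nontrivial
  obtain ⟨v0, hv0⟩ := exists_ne (0 : Additive V)
  set S := MulAction.stabilizer G v0 with hS
  have hSc : ∀ s : S, ((s : G) : X) * (v0.toMul : V) = (v0.toMul : V) * ((s : G) : X) := by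
    intro s
    have e := hsm s v0
    rw [MulAction.mem_stabilizer_iff.1 s.2] at e
    rw [← mul_inv_eq_iff_eq_mul, ← e]
  have hle : kk X ≤ kk G + kk S := by
    let f2 : ConjClasses S → ConjClasses X := Quotient.lift
      (fun s : S => ConjClasses.mk (((v0.toMul : V) : X) * ((s : G) : X))) (by
        intro s t hst
        obtain ⟨c, hc⟩ := isConj_iff.1 hst
        rw [ConjClasses.mk_eq_mk_iff_isConj, isConj_iff]
        refine ⟨((c : G) : X), ?_⟩
        rw [← hc, ← mul_assoc, hSc]
        simp [mul_assoc])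
    have hf2 : ∀ s : S, f2 (ConjClasses.mk s) =
        ConjClasses.mk (((v0.toMul : V) : X) * ((s : G) : X)) := fun _ => rfl
    let f : ConjClasses G ⊕ ConjClasses S → ConjClasses X :=
      Sum.elim (ConjClasses.map G.subtype) f2
    rw [← Nat.card_sum]
    refine Nat.card_le_card_of_surjective f fun cx => ?_
    obtain ⟨x, rfl⟩ := ConjClasses.mk_surjective cx
    obtain ⟨⟨v, g⟩, rfl⟩ := hGV.2 x
    have hco : Nat.Coprime (Nat.card G) p :=
      ((Nat.Prime.coprime_iff_not_dvd hp).2 hTr.cop).symm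
    obtain ⟨c, w, hc, hv⟩ := wrap_split (G := G) (V := Additive V) (p := p)
      (fun v => hext _ _ (by simpa using hVexp _ v.toMul.2)) hco g pow_card_eq_one'
      (Additive.ofMul v)
    have hv' : (v : X) = (c.toMul : V) * ((g : X) * (w.toMul : V) * (g : X)⁻¹ *
        ((w.toMul : V) : X)⁻¹) := by
      have := congrArg (fun v : Additive V => ((v.toMul : V) : X)) hv
      simpa [hsm, div_eq_mul_inv] using this
    have hconj : IsConj (((c.toMul : V) : X) * (g : X)) ((v : X) * (g : X)) := by
      rw [isConj_iff]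
      refine ⟨((w.toMul : V) : X)⁻¹, ?_⟩
      have hw := w.toMul.2
      have e1 := hcomm _ (hN.conj_mem _ hw (g : X)) _ (V.inv_mem hw)
      have e2 := hcomm _ c.toMul.2 _ (V.inv_mem hw)
      rw [hv', e1, ← mul_assoc, ← mul_assoc, ← e2]
      simp [mul_assoc]
    by_cases hc0 : c = 0
    · refine ⟨Sum.inl (ConjClasses.mk g), ?_⟩
      change ConjClasses.mk (g : X) = ConjClasses.mk ((v : X) * (g : X))
      rw [ConjClasses.mk_eq_mk_iff_isConj]
      simpa [hc0] using hconj
    · obtain ⟨h, hh⟩ := hTr.tr c v0 hc0 hv0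
      have hs : h * g * h⁻¹ ∈ S := by
        rw [hS, MulAction.mem_stabilizer_iff, ← hh, mul_smul, mul_smul, inv_smul_smul, hc]
      refine ⟨Sum.inr (ConjClasses.mk ⟨_, hs⟩), ?_⟩
      change f2 (ConjClasses.mk ⟨_, hs⟩) = ConjClasses.mk ((v : X) * (g : X))
      rw [hf2, ConjClasses.mk_eq_mk_iff_isConj]
      refine IsConj.trans ?_ hconj
      rw [isConj_iff]
      refine ⟨(h : X)⁻¹, ?_⟩
      rw [← hh, hsm]
      simp [mul_assoc]
  obtain ⟨h1, h2⟩ := hC v0 hv0
  rw [hcardA] at h1 h2
  exact ⟨hle.trans h1, fun e => h2 (le_antisymm h1 (e ▸ hle))⟩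

end CfsgLib.KgT
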